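import Mathlib

/-!
# Commutants over the field with two elements
-/

set_option autoImplicit false

namespace Cfsg.Agent.H277.CS

open Module

universe u v

section general

variable {F : Type u} {V : Type v} [Field F] [AddCommGroup V] [Module F V] [FiniteDimensional F V]

/-- the commutant as a subspace -/
def comm (x : Module.End F V) : Submodule F (Module.End F V) where
  carrier := {c | Commute c x}
  add_mem' := fun ha hb => ha.add_left hb
  zero_mem' := Commute.zero_left x
  smul_mem' := fun a _ hc => hc.smul_left a

omit [FiniteDimensional F V] in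
theorem mem_comm {x c : Module.End F V} : c ∈ comm x ↔ Commute c x := Iff.rfl

/-- the maps vanishing on `W` -/
def van (W : Submodule F V) : Submodule F (Module.End F V) where
  carrier := {c | ∀ w ∈ W, c w = 0}
  add_mem' := fun ha hb w hw => by rw [LinearMap.add_apply, ha w hw, hb w hw, add_zero]
  zero_mem' := fun w _ => rfl
  smul_mem' := fun a c hc w hw => by rw [LinearMap.smul_apply, hc w hw, smul_zero]

omit [FiniteDimensional F V] in
theorem mem_van {W : Submodule F V} {c : Module.End F V} : c ∈ van W ↔ ∀ w ∈ W, c w = 0 := Iff.rfl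

theorem finrank_van (W : Submodule F V) :
    finrank F (van W) + finrank F W * finrank F V = finrank F V * finrank F V := by
  let res : Module.End F V →ₗ[F] (W →ₗ[F] V) := LinearMap.lcomp F V W.subtype
  have hker : LinearMap.ker res = van W := by
    ext c
    rw [LinearMap.mem_ker, mem_van]
    constructor
    · intro h w hw
      exact LinearMap.congr_fun h ⟨w, hw⟩
    · intro h
      apply LinearMap.ext
      rintro ⟨w, hw⟩
      exact h w hw
  have hsurj : LinearMap.range res = ⊤ := by
    rw [LinearMap.range_eq_top]
    intro g
    obtain ⟨g', hg'⟩ := LinearMap.exists_extend g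
    exact ⟨g', hg'⟩
  have h1 := LinearMap.finrank_range_add_finrank_ker res
  rw [hker, hsurj, finrank_top, Module.finrank_linearMap, Module.finrank_linearMap] at h1
  omega

omit [FiniteDimensional F V] in
/-- a map vanishing on `W` and not commuting with `x` -/
theorem exists_not_commute {x : Module.End F V} (hx : ∀ a : F, ∃ u : V, x u ≠ a • u) {W : Submodule F V} (hW : W ≠ ⊤) :
    ∃ c ∈ van W, c ∉ comm x := by
  obtain ⟨φ, hφ, hφW⟩ := Submodule.exists_le_ker_of_lt_top W (lt_top_iff_ne_top.2 hW)
  obtain ⟨z, hz⟩ : ∃ z, φ z = 1 := by
    obtain ⟨z, hz⟩ : ∃ z, φ z ≠ 0 := by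
      by_contra h
      push Not at h
      exact hφ (LinearMap.ext h)
    exact ⟨(φ z)⁻¹ • z, by rw [map_smul, smul_eq_mul, inv_mul_cancel₀ hz]⟩
  obtain ⟨u, hu⟩ := hx (φ (x z))
  refine ⟨φ.smulRight u, ?_, ?_⟩
  · intro w hw
    rw [LinearMap.smulRight_apply, LinearMap.mem_ker.1 (hφW hw), zero_smul]
  · intro h
    apply hu
    have h2 := LinearMap.congr_fun (mem_comm.1 h).eq z
    rw [Module.End.mul_apply, Module.End.mul_apply, LinearMap.smulRight_apply, LinearMap.smulRight_apply, hz,
      one_smul] at h2
    exact h2.symm

/-- **The dimension bound.** -/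
theorem finrank_comm_le {x : Module.End F V} (hx : ∀ a : F, ∃ u : V, x u ≠ a • u) {r : ℕ} (v : Fin r → V)
    {W : Submodule F V} (hW : W ≠ ⊤) (hv : ∀ c : Module.End F V, Commute c x → (∀ i, c (v i) = 0) → ∀ w ∈ W, c w = 0) :
    finrank F (comm x) + finrank F W * finrank F V + 1 ≤ r * finrank F V + finrank F V * finrank F V := by
  let ev : comm x →ₗ[F] (Fin r → V) :=
    { toFun := fun c i => (c : Module.End F V) (v i)
      map_add' := fun _ _ => rfl
      map_smul' := fun _ _ => rfl }
  have h1 := LinearMap.finrank_range_add_finrank_ker ev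
  have h2 : finrank F (LinearMap.range ev) ≤ r * finrank F V := by
    have := Submodule.finrank_le (LinearMap.range ev)
    rwa [Module.finrank_pi_fintype, Finset.sum_const, Finset.card_univ, Fintype.card_fin, smul_eq_mul] at this
  have h3 : finrank F (LinearMap.ker ev) < finrank F (van W) := by
    have h4 : (LinearMap.ker ev).map (comm x).subtype < van W := by
      refine lt_of_le_of_ne ?_ ?_
      · rintro _ ⟨⟨c, hc⟩, hc', rfl⟩
        have h5 : ev ⟨c, hc⟩ = 0 := hc'
        exact hv c hc (fun i => congrFun h5 i)
      · intro h
        obtain ⟨c, hc1, hc2⟩ := exists_not_commute hx hW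
        rw [← h] at hc1
        obtain ⟨⟨c', hc'⟩, -, rfl⟩ := hc1
        exact hc2 hc'
    have h5 := Submodule.finrank_lt_finrank_of_lt h4
    rwa [LinearEquiv.finrank_eq ((comm x).equivSubtypeMap (LinearMap.ker ev)).symm] at h5
  have h4 := finrank_van W
  omega

end general

section two

variable {F : Type u} {V : Type v} [Field F] [AddCommGroup V] [Module F V] [FiniteDimensional F V]

omit [FiniteDimensional F V] in
theorem exists_not_mem_two {p q : Submodule F V} (hp : p ≠ ⊤) (hq : q ≠ ⊤) : ∃ v, v ∉ p ∧ v ∉ q := by
  obtain ⟨a, -, ha⟩ := SetLike.exists_of_lt (lt_top_iff_ne_top.2 hp)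
  obtain ⟨b, -, hb⟩ := SetLike.exists_of_lt (lt_top_iff_ne_top.2 hq)
  by_cases h1 : a ∈ q
  · by_cases h2 : b ∈ p
    · refine ⟨a + b, fun h => ha ?_, fun h => hb ?_⟩
      · have := p.sub_mem h h2
        rwa [add_sub_cancel_right] at this
      · have := q.sub_mem h h1
        rwa [add_sub_cancel_left] at this
    · exact ⟨b, h2, hb⟩
  · exact ⟨a, ha, h1⟩

theorem range_one {α : Type*} (a : α) : Set.range ![a] = {a} := by
  ext z
  simp

theorem range_two {α : Type*} (a b : α) : Set.range ![a, b] = {a, b} := by
  ext z
  simp only [Matrix.range_cons, Matrix.range_empty, Set.union_empty, Set.mem_union, Set.mem_singleton_iff,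
    Set.mem_insert_iff]

theorem range_three {α : Type*} (a b c : α) : Set.range ![a, b, c] = {a, b, c} := by
  rw [show ![a, b, c] = Matrix.vecCons a ![b, c] from rfl, Matrix.range_cons, range_two]
  rfl

/-- **Commutants over the field with two elements.** -/
theorem finrank_comm_le_two (h2 : ∀ a : F, a = 0 ∨ a = 1) (hn : 5 ≤ finrank F V) {x : Module.End F V}
    (hinj : Function.Injective x) (hr : 2 ≤ finrank F (LinearMap.range (x - 1))) :
    finrank F (comm x) + 2 * finrank F V + 1 ≤ finrank F V * finrank F V := by
  have hns : ∀ a : F, ∃ u : V, x u ≠ a • u := by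
    intro a
    by_contra h
    push Not at h
    rcases h2 a with rfl | rfl
    · have : Nontrivial V := Module.nontrivial_of_finrank_pos (R := F) (by omega)
      obtain ⟨w, hw⟩ := exists_ne (0 : V)
      apply hw
      apply hinj
      rw [h, zero_smul, map_zero]
    · have h1 : x - 1 = 0 := by
        apply LinearMap.ext
        intro u
        rw [LinearMap.sub_apply, h, one_smul, Module.End.one_apply, sub_self]
        rfl
      rw [h1, LinearMap.range_zero, finrank_bot] at hr
      omega
  by_cases hc : ∃ v, x v ∉ Submodule.span F {v} ∧ x (x v) ∉ Submodule.span F {x v, v}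
  · -- a cyclic subspace of dimension three
    obtain ⟨v, hv1, hv2⟩ := hc
    have hv0 : v ≠ 0 := by
      rintro rfl
      apply hv1
      rw [map_zero]
      exact Submodule.zero_mem _
    have hli0 : LinearIndependent F ![v] := LinearIndependent.of_subsingleton (0 : Fin 1) hv0
    have hli1 : LinearIndependent F ![x v, v] := linearIndependent_finCons.2 ⟨hli0, by rwa [range_one]⟩
    have hli : LinearIndependent F ![x (x v), x v, v] := linearIndependent_finCons.2 ⟨hli1, by rwa [range_two]⟩
    set W := Submodule.span F (Set.range ![x (x v), x v, v]) with hW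
    have hWf : finrank F W = 3 := by
      rw [hW, finrank_span_eq_card hli, Fintype.card_fin]
    have hWt : W ≠ ⊤ := by
      intro h
      rw [h, finrank_top] at hWf
      omega
    have key := finrank_comm_le hns (r := 1) (fun _ => v) hWt (by
      intro c hc hcv w hw
      have hcv' : c v = 0 := hcv 0
      have hcx : c (x v) = 0 := by
        rw [← Module.End.mul_apply, hc.eq, Module.End.mul_apply, hcv', map_zero]
      have hcxx : c (x (x v)) = 0 := by
        rw [← Module.End.mul_apply, hc.eq, Module.End.mul_apply, hcx, map_zero]
      have : W ≤ LinearMap.ker c := by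
        rw [hW, Submodule.span_le]
        rintro _ ⟨i, rfl⟩
        rw [SetLike.mem_coe, LinearMap.mem_ker]
        fin_cases i
        · exact hcxx
        · exact hcx
        · exact hcv'
      exact LinearMap.mem_ker.1 (this hw))
    rw [hWf] at key
    omega
  · push Not at hc
    -- choose `v1`
    obtain ⟨v1, hv1f, hv1r⟩ : ∃ v1, x v1 ≠ v1 ∧ (LinearMap.range (x - 1) = ⊤ ∨ v1 ∉ LinearMap.range (x - 1)) := by
      by_cases ht : LinearMap.range (x - 1) = ⊤
      · obtain ⟨u, hu⟩ := hns 1
        exact ⟨u, by rwa [one_smul] at hu, Or.inl ht⟩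
      · obtain ⟨v, hv, hv'⟩ := exists_not_mem_two (p := LinearMap.ker (x - 1)) (q := LinearMap.range (x - 1)) (by
          intro h
          rw [LinearMap.ker_eq_top] at h
          rw [h, LinearMap.range_zero, finrank_bot] at hr
          omega) ht
        refine ⟨v, fun h => hv ?_, Or.inr hv'⟩
        rw [LinearMap.mem_ker, LinearMap.sub_apply, h, Module.End.one_apply, sub_self]
    have hv10 : v1 ≠ 0 := by
      rintro rfl
      exact hv1f (map_zero x)
    have hxv10 : x v1 ≠ 0 := by
      intro h
      apply hv10
      apply hinj
      rw [h, map_zero]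
    have hv1s : x v1 ∉ Submodule.span F {v1} := by
      rw [Submodule.mem_span_singleton]
      rintro ⟨a, ha⟩
      rcases h2 a with rfl | rfl
      · rw [zero_smul] at ha; exact hxv10 ha.symm
      · rw [one_smul] at ha; exact hv1f ha.symm
    set U := Submodule.span F {x v1, v1} with hU
    have hv1U : v1 ∈ U := Submodule.subset_span (by simp)
    have hxv1U : x v1 ∈ U := Submodule.subset_span (by simp)
    have hxxU : x (x v1) ∈ U := hc v1 hv1s
    have hxU : U ≤ U.comap x := by
      rw [hU, Submodule.span_le]
      rintro w hw
      rw [Set.mem_insert_iff, Set.mem_singleton_iff] at hw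
      rcases hw with rfl | rfl
      · exact hxxU
      · exact hxv1U
    have hli0 : LinearIndependent F ![v1] := LinearIndependent.of_subsingleton (0 : Fin 1) hv10
    have hli1 : LinearIndependent F ![x v1, v1] := linearIndependent_finCons.2 ⟨hli0, by rwa [range_one]⟩
    have hUf : finrank F U = 2 := by
      have h3 : U = Submodule.span F (Set.range ![x v1, v1]) := by
        rw [hU, range_two]
      rw [h3, finrank_span_eq_card hli1, Fintype.card_fin]
    have hUmap : U.map x = U := by
      apply Submodule.eq_of_le_of_finrank_eq (Submodule.map_le_iff_le_comap.2 hxU)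
      exact (Submodule.equivMapOfInjective x hinj U).finrank_eq.symm
    obtain ⟨v2, hv2U, hv2x⟩ : ∃ v2, v2 ∉ U ∧ x v2 ∉ Submodule.span F {v2, x v1, v1} := by
      by_contra hcon
      push Not at hcon
      have hle : LinearMap.range (x - 1) ≤ U := by
        rintro _ ⟨v, rfl⟩
        by_cases hvU : v ∈ U
        · exact U.sub_mem (hxU hvU) hvU
        · have h3 := hcon v hvU
          rw [Submodule.mem_span_insert] at h3
          obtain ⟨a, z, hz, hxz⟩ := h3
          rcases h2 a with rfl | rfl
          · exfalso
            rw [zero_smul, zero_add] at hxz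
            have h4 : x v ∈ U.map x := by rw [hUmap, hxz]; exact hz
            obtain ⟨w, hw, hwv⟩ := h4
            exact hvU (hinj hwv ▸ hw)
          · rw [one_smul] at hxz
            rw [LinearMap.sub_apply, Module.End.one_apply, hxz, add_sub_cancel_left]
            exact hz
      have heq : LinearMap.range (x - 1) = U := by
        apply Submodule.eq_of_le_of_finrank_le hle
        rw [hUf]; exact hr
      rcases hv1r with h | h
      · rw [h] at heq
        rw [← heq, finrank_top] at hUf
        omega
      · exact h (heq ▸ hv1U)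
    have hli1' : LinearIndependent F ![v2, x v1, v1] := linearIndependent_finCons.2 ⟨hli1, by rwa [range_two]⟩
    have hli2 : LinearIndependent F ![x v2, v2, x v1, v1] :=
      linearIndependent_finCons.2 ⟨hli1', by rwa [range_three]⟩
    set W := Submodule.span F (Set.range ![x v2, v2, x v1, v1]) with hW
    have hWf : finrank F W = 4 := by
      rw [hW, finrank_span_eq_card hli2, Fintype.card_fin]
    have hWt : W ≠ ⊤ := by
      intro h
      rw [h, finrank_top] at hWf
      omega
    have key := finrank_comm_le hns (r := 2) ![v1, v2] hWt (by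
      intro c hc hcv w hw
      have hc1 : c v1 = 0 := hcv 0
      have hc2 : c v2 = 0 := hcv 1
      have hcx1 : c (x v1) = 0 := by
        rw [← Module.End.mul_apply, hc.eq, Module.End.mul_apply, hc1, map_zero]
      have hcx2 : c (x v2) = 0 := by
        rw [← Module.End.mul_apply, hc.eq, Module.End.mul_apply, hc2, map_zero]
      have : W ≤ LinearMap.ker c := by
        rw [hW, Submodule.span_le]
        rintro _ ⟨i, rfl⟩
        rw [SetLike.mem_coe, LinearMap.mem_ker]
        fin_cases i
        · exact hcx2
        · exact hc2
        · exact hcx1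
        · exact hc1
      exact LinearMap.mem_ker.1 (this hw))
    rw [hWf] at key
    omega

end two

end Cfsg.Agent.H277.CS
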