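import Mathlib
import Cfsg.Agent.H277.CS.PslSub

/-!
# S3677: `PSL_3(4)` and `A_8` have different centralizer orders (helper277)

`15` is a centralizer order of `A_8` (cycle type `(5,3)`), not of `PSL_3(4)`.
-/

set_option autoImplicit false

namespace Cfsg.Agent.H277.CS

open Matrix Cfsg.Agent.H431.CS Cfsg.Agent.H364 Cfsg.Agent.H370.AAM

universe u v

theorem fifteen_mem : 15 ∈ Co (alternatingGroup (Fin 8)) := by
  obtain ⟨g, hg⟩ := (Equiv.Perm.exists_with_cycleType_iff (Fin 8) (m := {5, 3})).2
    ⟨by decide, by decide⟩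
  have hs : Equiv.Perm.sign g = 1 := by
    rw [Equiv.Perm.sign_of_cycleType, hg]
    decide
  have ho : orderOf g = 15 := by
    rw [← Equiv.Perm.lcm_cycleType, hg]
    decide
  have hc : Nat.card (Subgroup.centralizer ({g} : Set (Equiv.Perm (Fin 8)))) = 15 := by
    rw [Equiv.Perm.nat_card_centralizer, hg]
    decide
  refine ⟨⟨g, Equiv.Perm.mem_alternatingGroup.2 hs⟩, ?_⟩
  set x : alternatingGroup (Fin 8) := ⟨g, Equiv.Perm.mem_alternatingGroup.2 hs⟩ with hx
  show Nat.card (Subgroup.centralizer ({x} : Set (alternatingGroup (Fin 8)))) = 15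
  have hox : orderOf x = 15 := by
    rw [← ho]
    exact (Subgroup.orderOf_coe x).symm
  apply le_antisymm
  · rw [← hc]
    let φ : Subgroup.centralizer ({x} : Set (alternatingGroup (Fin 8))) →
        Subgroup.centralizer ({g} : Set (Equiv.Perm (Fin 8))) := fun y =>
      ⟨y.1.1, mem_cent.2 (by
        have h := mem_cent.1 y.2
        exact congrArg Subtype.val h)⟩
    apply Nat.card_le_card_of_injective φ
    intro a b hab
    have h1 : (φ a).1 = (φ b).1 := by rw [hab]
    exact Subtype.ext (Subtype.ext h1)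
  · apply Nat.le_of_dvd Nat.card_pos
    exact dvd_cent (Commute.refl x) hox.symm.dvd

/-- **`PSL_3(4)` and `A_8` have different class sizes.** -/
theorem sep_L34 {F : Type v} [Field F] [Fintype F] (hF : Fintype.card F = 4) :
    Co (Matrix.ProjectiveSpecialLinearGroup (Fin 3) F) ≠ Co (alternatingGroup (Fin 8)) := by
  intro h
  have h5 : Nat.Prime 5 := by norm_num
  have ho : orderOf (((2 ^ 2 : ℕ)) : ZMod 5) = 2 := orderOf_eq_prime (by decide) (by decide)
  have L : Lat (Matrix.ProjectiveSpecialLinearGroup (Fin 3) F) 2 5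
      (((2 ^ 2) ^ (3 - 1) - 1) / Nat.gcd 3 (2 ^ 2 - 1)) := by
    refine lat_psl_sub (F := F) Nat.prime_two (by norm_num) hF le_rfl h5 ?_
    exact ho
  have hmem : 15 ∈ Co (Matrix.ProjectiveSpecialLinearGroup (Fin 3) F) := h ▸ fifteen_mem
  have hne : 15 ≠ Nat.card (Matrix.ProjectiveSpecialLinearGroup (Fin 3) F) := by
    intro hcon
    have h1 := card_psl hF (n := 3) (by norm_num)
    rw [← hcon] at h1
    revert h1
    decide
  have h1 := L.one 15 hmem hne (by norm_num) (by norm_num)
  revert h1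
  decide

end Cfsg.Agent.H277.CS
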