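import Mathlib
import Cfsg.Agent.H277.CS.PslTop
import Cfsg.Agent.H277.CS.Reg
import Cfsg.Agent.H277.CS.Comm2
import Cfsg.Agent.S2572
import Cfsg.Agent.Lib.Cores

/-!
# S3677: `PSL_6(2)` and `PSL_7(2)`: `O_2(G) = 1`
-/

set_option autoImplicit false
set_option linter.style.haveILetI false

namespace Cfsg.Agent.H277.CS

open Matrix Module Cfsg Cfsg.Agent.H363.PslSpec Cfsg.Agent.H370.AAM Cfsg.Agent.H431.CS Cfsg.Agent.H364

universe u v

section cls

variable {F : Type v} [Field F] [Fintype F] {n : ℕ}

theorem eq_zero_or_one (hF : Fintype.card F = 2) (a : F) : a = 0 ∨ a = 1 := by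
  classical
  by_contra h
  push Not at h
  have h1 : ({0, 1, a} : Finset F).card ≤ Fintype.card F := Finset.card_le_univ _
  have h2 : ({0, 1, a} : Finset F).card = 3 := by
    rw [Finset.card_eq_three]
    exact ⟨0, 1, a, zero_ne_one, h.1.symm, h.2.symm, rfl⟩
  omega

theorem card_cent_two (hF : Fintype.card F = 2) (hn : 1 ≤ n) (g : SpecialLinearGroup (Fin n) F) :
    Nat.card (Subgroup.centralizer ({pr F n g} : Set (ProjectiveSpecialLinearGroup (Fin n) F))) =
      Nat.card (Subgroup.centralizer ({g} : Set (SpecialLinearGroup (Fin n) F))) := by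
  obtain ⟨e, he, h⟩ := card_cent_psl (F := F) hn g
  have h1 : Nat.gcd n (Nat.card F - 1) = 1 := by rw [Nat.card_eq_fintype_card, hF]; simp
  rw [h1, Nat.dvd_one] at he
  rw [h1, he, mul_one, mul_one] at h
  exact h

/-- transvections -/
theorem card_cent_transvection (hF : Fintype.card F = 2) (hn : 2 ≤ n) (g : SpecialLinearGroup (Fin n) F)
    (h : (act g - 1) ^ 2 = 0) (hr : finrank F (LinearMap.range (act g - 1)) = 1) :
    Nat.card (Subgroup.centralizer ({g} : Set (SpecialLinearGroup (Fin n) F))) =
      2 ^ (2 * n - 3) * ∏ i : Fin (n - 2), (2 ^ (n - 2) - 2 ^ (i : ℕ)) := by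
  let t : GL (Fin n) F := SpecialLinearGroup.toGL g
  have hmat : act g - 1 = Matrix.toLinAlgEquiv' ((t : Matrix (Fin n) (Fin n) F) - 1) := by
    rw [map_sub, map_one]
    rfl
  have ht : IsTransvection (t : Matrix (Fin n) (Fin n) F) := by
    refine ⟨?_, ?_⟩
    · rw [← hr, hmat]
      rfl
    · rw [hmat, ← map_pow, pow_two] at h
      have h2 := (Matrix.toLinAlgEquiv' : Matrix (Fin n) (Fin n) F ≃ₐ[F] _).injective (h.trans (map_zero _).symm)
      exact h2
  have key := S2572.result hF hn t ht
  have e1 : (2 : ℕ) - 1 = 1 := rfl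
  rw [e1, mul_one] at key
  rw [← key]
  let φ : Subgroup.centralizer ({g} : Set (SpecialLinearGroup (Fin n) F)) →
      Subgroup.centralizer ({t} : Set (GL (Fin n) F)) := fun b =>
    ⟨SpecialLinearGroup.toGL (b : SpecialLinearGroup (Fin n) F), by
      rw [Subgroup.mem_centralizer_singleton_iff]
      have := Subgroup.mem_centralizer_singleton_iff.1 b.2
      show SpecialLinearGroup.toGL (b : SpecialLinearGroup (Fin n) F) * SpecialLinearGroup.toGL g =
        SpecialLinearGroup.toGL g * SpecialLinearGroup.toGL (b : SpecialLinearGroup (Fin n) F)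
      rw [← map_mul, this, map_mul]⟩
  apply Nat.card_eq_of_bijective φ
  have hinj : Function.Injective (SpecialLinearGroup.toGL : SpecialLinearGroup (Fin n) F →* GL (Fin n) F) := by
    intro a b hab
    apply Subtype.ext
    exact congrArg (fun z : GL (Fin n) F => (z : Matrix (Fin n) (Fin n) F)) hab
  constructor
  · intro a b hab
    exact Subtype.ext (hinj (congrArg Subtype.val hab))
  · rintro ⟨b, hb⟩
    have hdet : (b : Matrix (Fin n) (Fin n) F).det = 1 := by
      rcases eq_zero_or_one hF (b : Matrix (Fin n) (Fin n) F).det with h0 | h0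
      · exact absurd h0 (b.isUnit.map Matrix.detMonoidHom).ne_zero
      · exact h0
    let c : SpecialLinearGroup (Fin n) F := ⟨b, hdet⟩
    have hc : SpecialLinearGroup.toGL c = b := Units.ext rfl
    refine ⟨⟨c, ?_⟩, Subtype.ext hc⟩
    rw [Subgroup.mem_centralizer_singleton_iff] at hb ⊢
    apply hinj
    rw [map_mul, map_mul, hc]
    exact hb

/-- **Centralizer orders over the field with two elements.** -/
theorem cent_two (hF : Fintype.card F = 2) (hn : 5 ≤ n) {x : ProjectiveSpecialLinearGroup (Fin n) F} (hx : x ≠ 1) :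
    Nat.card (Subgroup.centralizer ({x} : Set (ProjectiveSpecialLinearGroup (Fin n) F))) =
      2 ^ (2 * n - 3) * ∏ i : Fin (n - 2), (2 ^ (n - 2) - 2 ^ (i : ℕ)) ∨
    Nat.card (Subgroup.centralizer ({x} : Set (ProjectiveSpecialLinearGroup (Fin n) F))) ≤
      2 ^ (n * n - 2 * n - 1) := by
  have h2 := eq_zero_or_one hF
  obtain ⟨g, rfl⟩ := pr_surjective x
  rw [card_cent_two hF (by omega)]
  have hinj := H363.PslTorus.act_injective_apply g
  have hg1 : act g ≠ 1 := by
    intro h
    apply hx
    have : g = 1 := act_injective (by rw [h, map_one])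
    rw [this, map_one]
  have hfr : finrank F (Fin n → F) = n := finrank_fin_fun F
  by_cases hr : 2 ≤ finrank F (LinearMap.range (act g - 1))
  · right
    have key := finrank_comm_le_two h2 (by rw [hfr]; exact hn) hinj hr
    rw [hfr] at key
    have h3 : Nat.card (Subgroup.centralizer ({g} : Set (SpecialLinearGroup (Fin n) F))) ≤ Nat.card (comm (act g)) := by
      have hfin : Finite (Module.End F (Fin n → F)) := Module.finite_of_finite F
      rw [card_cent_sl]
      apply Nat.card_le_card_of_injective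
        (fun b : {b : Module.End F (Fin n → F) // LinearMap.det b = 1 ∧ Commute b (act g)} =>
          (⟨b.1, b.2.2⟩ : comm (act g)))
      intro a b hab
      have hab' := congrArg Subtype.val hab
      exact Subtype.ext hab'
    have h4 : Nat.card (comm (act g)) = 2 ^ finrank F (comm (act g)) := by
      rw [Module.natCard_eq_pow_finrank (K := F), Nat.card_eq_fintype_card, hF]
    refine h3.trans (h4.trans_le (Nat.pow_le_pow_right (by norm_num) ?_))
    omega
  · left
    push Not at hr
    have hr0 : finrank F (LinearMap.range (act g - 1)) ≠ 0 := by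
      intro h
      apply hg1
      rw [Submodule.finrank_eq_zero, LinearMap.range_eq_bot] at h
      exact sub_eq_zero.1 h
    have hr1 : finrank F (LinearMap.range (act g - 1)) = 1 := by omega
    apply card_cent_transvection hF (by omega) g _ hr1
    -- `(g - 1)² = 0`
    obtain ⟨⟨e, he⟩, he0, hspan⟩ := finrank_eq_one_iff'.1 hr1
    have hNe : (act g - 1) e = 0 := by
      obtain ⟨a, ha⟩ := hspan ⟨(act g - 1) e, LinearMap.mem_range_self _ _⟩
      have ha' : a • e = (act g - 1) e := congrArg Subtype.val ha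
      rcases h2 a with rfl | rfl
      · rw [← ha', zero_smul]
      · exfalso
        rw [one_smul, LinearMap.sub_apply, Module.End.one_apply] at ha'
        have h5 : act g e = e + e := by
          rw [eq_sub_iff_add_eq] at ha'
          exact ha'.symm
        have h6 : e + e = 0 := by
          have h7 : (1 : F) + 1 = 0 := by
            rcases h2 ((1 : F) + 1) with h8 | h8
            · exact h8
            · have : (1 : F) = 0 := by
                have := add_left_cancel (h8.trans (add_zero (1 : F)).symm)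
                exact this
              exact absurd this one_ne_zero
          rw [← one_smul F e, ← add_smul, h7, zero_smul]
        apply he0
        apply Subtype.ext
        apply hinj
        show act g e = act g 0
        rw [h5, h6, map_zero]
    apply LinearMap.ext
    intro w
    rw [pow_two, Module.End.mul_apply]
    obtain ⟨a, ha⟩ := hspan ⟨(act g - 1) w, LinearMap.mem_range_self _ _⟩
    have ha' : a • e = (act g - 1) w := congrArg Subtype.val ha
    rw [← ha', map_smul, hNe, smul_zero]
    rfl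

end cls

/-! ### The prime 127 for `PSL_7(2)` -/

section seven

variable {F : Type v} [Field F] [Fintype F]

theorem card_psl_two {n : ℕ} (hF : Fintype.card F = 2) (hn : 2 ≤ n) :
    Nat.card (ProjectiveSpecialLinearGroup (Fin n) F) =
      2 ^ (n * (n - 1) / 2) * ∏ i ∈ Finset.range (n - 1), (2 ^ (i + 2) - 1) := by
  have h := card_psl hF hn
  have h1 : Nat.gcd n (2 - 1) = 1 := by simp
  rwa [h1, one_mul] at h

theorem card_six (hF : Fintype.card F = 2) :
    Nat.card (ProjectiveSpecialLinearGroup (Fin 6) F) = 20158709760 := by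
  rw [card_psl_two hF (by norm_num)]
  decide

theorem card_seven (hF : Fintype.card F = 2) :
    Nat.card (ProjectiveSpecialLinearGroup (Fin 7) F) = 163849992929280 := by
  rw [card_psl_two hF (by norm_num)]
  decide

/-- centralizer orders of `PSL_7(2)` divisible by 127 -/
theorem eq_127 (hF : Fintype.card F = 2) {x : ProjectiveSpecialLinearGroup (Fin 7) F} (hx : x ≠ 1)
    (h : 127 ∣ Nat.card (Subgroup.centralizer ({x} : Set (ProjectiveSpecialLinearGroup (Fin 7) F)))) :
    Nat.card (Subgroup.centralizer ({x} : Set (ProjectiveSpecialLinearGroup (Fin 7) F))) = 127 := by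
  obtain ⟨g, rfl⟩ := pr_surjective x
  have hqF : Nat.card F = 2 := by rw [Nat.card_eq_fintype_card, hF]
  obtain ⟨k, m, hkm, hk, hd⟩ := exists_dvd_top (F := F) (s := 127) (by norm_num) (n := 7) (by norm_num)
    (by rw [hqF]; norm_num) (by
      intro d hd0 hd7
      rw [hqF]
      interval_cases d <;> norm_num) hx h
  rw [card_cent_two hF (by norm_num)] at h ⊢
  have hk7 : k = 7 := by
    have h1 : k ∣ 7 := ⟨m, hkm.symm⟩
    rcases (Nat.dvd_prime (by norm_num)).1 h1 with h2 | h2
    · omega
    · exact h2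
  subst hk7
  have hm : m = 1 := by omega
  subst hm
  rw [hqF] at hd
  have h2 : ∏ i : Fin 1, (((2 : ℕ) ^ 7) ^ 1 - (2 ^ 7) ^ (i : ℕ)) = 127 := by simp
  rw [h2] at hd
  exact Nat.dvd_antisymm hd h

theorem latw_seven (hF : Fintype.card F = 2) : LatW (ProjectiveSpecialLinearGroup (Fin 7) F) 2 127 := by
  have hfin : Finite (ProjectiveSpecialLinearGroup (Fin 7) F) := inferInstance
  have hne1 : ∀ x : ProjectiveSpecialLinearGroup (Fin 7) F,
      Nat.card (Subgroup.centralizer ({x} : Set (ProjectiveSpecialLinearGroup (Fin 7) F))) ≠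
        Nat.card (ProjectiveSpecialLinearGroup (Fin 7) F) → x ≠ 1 := by
    rintro x hc rfl
    apply hc
    have : Subgroup.centralizer ({1} : Set (ProjectiveSpecialLinearGroup (Fin 7) F)) = ⊤ := by
      rw [eq_top_iff]
      intro y _
      rw [Subgroup.mem_centralizer_singleton_iff]
      simp
    rw [this, Subgroup.card_top]
  have h127 : Nat.Prime 127 := by norm_num
  have hfac : (Nat.card (ProjectiveSpecialLinearGroup (Fin 7) F)).factorization 127 = 1 := by
    rw [card_seven hF]
    exact fact_of (d := 1) (X := 1290157424640) h127 (by norm_num) (by norm_num) (by norm_num)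
  obtain ⟨k, hk, -⟩ := reg_psl (F := F) (p := 2) (f := 1) (n := 7) Nat.prime_two le_rfl (by rw [hF]; rfl) (by norm_num)
  refine ⟨⟨_, hk, fun h => ?_⟩, ?_, ?_, ?_⟩
  · have := (Nat.prime_dvd_prime_iff_eq h127 Nat.prime_two).1 (h127.dvd_of_dvd_pow h)
    omega
  · have := Fact.mk h127
    obtain ⟨y, hy⟩ := exists_prime_orderOf_dvd_card' (G := ProjectiveSpecialLinearGroup (Fin 7) F) 127 (by
      rw [card_seven hF]; norm_num)
    refine ⟨_, mem_co y, ?_⟩
    rw [eq_127 hF (by rintro rfl; rw [orderOf_one] at hy; omega) (dvd_cent (Commute.refl y) hy.symm.dvd), hfac]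
    norm_num
  · rintro _ ⟨x, rfl⟩ hcx hrx
    dsimp only at hcx hrx ⊢
    rw [eq_127 hF (hne1 x hcx) hrx]
    intro h
    have h1 : 1 ≤ (Nat.card (ProjectiveSpecialLinearGroup (Fin 7) F)).factorization 2 := by
      apply (Nat.prime_two.dvd_iff_one_le_factorization Nat.card_pos.ne').1
      rw [card_seven hF]; norm_num
    have h2 : 2 ∣ 127 := (dvd_pow_self 2 (by omega)).trans h
    omega
  · rintro _ ⟨x, rfl⟩ hcx hrx hpx
    dsimp only at hcx hrx hpx ⊢
    rw [eq_127 hF (hne1 x hcx) hrx] at hpx
    omega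

end seven

/-! ### Normal 2-subgroups -/

section core

variable {G : Type u} [Group G] [Finite G]

/-- a normal abelian `p`-subgroup -/
theorem exists_abelian {p : ℕ} (hp : p.Prime) (h : pCore p G ≠ ⊥) :
    ∃ V : Subgroup G, V.Normal ∧ V ≠ ⊥ ∧ IsPGroup p V ∧ ∀ a ∈ V, ∀ b ∈ V, Commute a b := by
  have := Fact.mk hp
  have hQn := Lib.Cores.pCore_normal (G := G) p
  have hQp := Lib.Cores.pCore_isPGroup (G := G) p
  set Q := pCore p G
  refine ⟨(Subgroup.center Q).map Q.subtype, ?_, ?_, ?_, ?_⟩
  · infer_instance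
  · intro h0
    have h1 : Nontrivial Q := (Subgroup.nontrivial_iff_ne_bot Q).2 h
    have h2 := hQp.center_nontrivial
    obtain ⟨z, hz⟩ := exists_ne (1 : Subgroup.center Q)
    have h3 : ((z : Q) : G) ∈ (Subgroup.center Q).map Q.subtype := ⟨z, z.2, rfl⟩
    rw [h0, Subgroup.mem_bot] at h3
    exact hz (Subtype.ext (Subtype.ext h3))
  · exact (hQp.to_subgroup _).map _
  · rintro _ ⟨a, ha, rfl⟩ _ ⟨b, hb, rfl⟩
    have h1 := Subgroup.mem_center_iff.1 hb a
    exact congrArg Subtype.val h1

/-- a fixed point free element of prime order on a normal `p`-subgroup -/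
theorem card_modEq {p r : ℕ} (hp : p.Prime) (hr : r.Prime) (hrp : r ≠ p) {V : Subgroup G} (hV : V.Normal)
    (hVp : IsPGroup p V) (hE : NoEdge G r p) {y : G} (hy : orderOf y = r) : Nat.card V ≡ 1 [MOD r] := by
  have := Fact.mk hr
  have := Fact.mk hp
  let P : Subgroup (ConjAct G) := Subgroup.zpowers (ConjAct.toConjAct y)
  have hP : IsPGroup r P := by
    apply IsPGroup.of_card (n := 1)
    rw [Nat.card_zpowers, pow_one, ← hy]
    exact orderOf_injective (ConjAct.toConjAct (G := G)).toMonoidHom (ConjAct.toConjAct (G := G)).injective y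
  have h1 := hP.card_modEq_card_fixedPoints V
  refine h1.trans ?_
  have h2 : Nat.card (MulAction.fixedPoints P V) = 1 := by
    rw [Nat.card_eq_one_iff_unique]
    refine ⟨⟨?_⟩, ⟨⟨1, fun g => smul_one g⟩⟩⟩
    have key : ∀ v : MulAction.fixedPoints P V, (v : V) = 1 := by
      rintro ⟨v, hv⟩
      by_contra hv1
      have h3 := hv ⟨ConjAct.toConjAct y, Subgroup.mem_zpowers _⟩
      have h4 : y * (v : G) * y⁻¹ = v := congrArg Subtype.val h3
      have h5 : Commute y (v : G) := mul_inv_eq_iff_eq_mul.1 h4
      obtain ⟨j, hj⟩ := hVp v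
      have h6 : orderOf v ∣ p ^ j := orderOf_dvd_of_pow_eq_one hj
      obtain ⟨i, -, hi⟩ := (Nat.dvd_prime_pow hp).1 h6
      have hi0 : i ≠ 0 := by
        rintro rfl
        rw [pow_zero, orderOf_eq_one_iff] at hi
        exact hv1 hi
      have h7 : p ∣ orderOf (v : G) := by
        rw [Subgroup.orderOf_coe, hi]
        exact dvd_pow_self p hi0
      exact hE.false_of_dvd hr hp hrp h5 hy.symm.dvd h7
    intro a b
    exact Subtype.ext ((key a).trans (key b).symm)
  rw [h2]

/-- the class of an element of a normal subgroup -/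
theorem index_le {V : Subgroup G} (hV : V.Normal) {v : G} (hv : v ∈ V) (hv1 : v ≠ 1) :
    (Subgroup.centralizer ({v} : Set G)).index + 1 ≤ Nat.card V := by
  have h1 : (MulAction.orbit (ConjAct G) v) ⊆ (V : Set G) \ {1} := by
    rintro _ ⟨g, rfl⟩
    refine ⟨?_, ?_⟩
    · show g • v ∈ V
      rw [ConjAct.smul_def]
      exact hV.conj_mem v hv _
    · intro h
      apply hv1
      have h2 : g • v = 1 := h
      rwa [smul_eq_iff_eq_inv_smul, smul_one] at h2
  have h2 : (Subgroup.centralizer ({v} : Set G)).index = (MulAction.orbit (ConjAct G) v).ncard := by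
    rw [← MulAction.index_stabilizer]
    have h3 := ConjAct.stabilizer_eq_centralizer v
    rw [h3]
    rfl
  have h3 := Set.ncard_le_ncard h1 (Set.toFinite _)
  have h4 := Set.ncard_sdiff_singleton_add_one (s := (V : Set G)) (a := 1) V.one_mem (Set.toFinite _)
  have h5 : (V : Set G).ncard = Nat.card V := rfl
  omega

end core

/-! ### The theorems -/

section main

variable {G : Type u} [Group G] [Finite G]

/-- the order of a `p`-subgroup -/
theorem exists_pow_of {p N : ℕ} (hp : p.Prime) {V : Subgroup G} (hVp : IsPGroup p V) (hN : ¬ p ^ (N + 1) ∣ Nat.card G) :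
    ∃ k, k ≤ N ∧ Nat.card V = p ^ k := by
  have := Fact.mk hp
  obtain ⟨k, hk⟩ := IsPGroup.iff_card.1 hVp
  refine ⟨k, ?_, hk⟩
  by_contra h
  push Not at h
  apply hN
  exact (pow_dvd_pow p h).trans (hk ▸ Subgroup.card_subgroup_dvd_card V)

/-- a normal abelian Sylow subgroup centralises all `p`-elements -/
theorem le_cent_of {p N : ℕ} (hp : p.Prime) {V : Subgroup G} (hV : V.Normal) (hVp : IsPGroup p V)
    (hVc : ∀ a ∈ V, ∀ b ∈ V, Commute a b) (hN : ¬ p ^ (N + 1) ∣ Nat.card G) (hVN : Nat.card V = p ^ N) {g : G}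
    {k : ℕ} (hg : Nat.card (Subgroup.centralizer ({g} : Set G)) = p ^ k) : p ^ N ≤ p ^ k := by
  have := Fact.mk hp
  have h1 : IsPGroup p (Subgroup.zpowers g) := by
    have h2 : g ∈ Subgroup.centralizer ({g} : Set G) := mem_cent.2 (Commute.refl g)
    exact (IsPGroup.of_card hg).to_le (Subgroup.zpowers_le.2 h2)
  have h2 : IsPGroup p (V ⊔ Subgroup.zpowers g : Subgroup G) := hVp.to_sup_of_normal_left h1
  obtain ⟨j, hj, hj'⟩ := exists_pow_of hp h2 hN
  have h3 : V = V ⊔ Subgroup.zpowers g := by
    apply Subgroup.eq_of_le_of_card_ge le_sup_left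
    rw [hj', hVN]
    exact Nat.pow_le_pow_right hp.pos hj
  have h4 : g ∈ V := by
    rw [h3]
    exact (le_sup_right : Subgroup.zpowers g ≤ V ⊔ Subgroup.zpowers g) (Subgroup.mem_zpowers g)
  have h5 : V ≤ Subgroup.centralizer ({g} : Set G) := fun v hv => mem_cent.2 (hVc v hv g h4)
  rw [← hVN, ← hg]
  exact Subgroup.card_le_of_le h5

/-- the elements of a normal subgroup, seen in `S` -/
theorem exists_in {S : Type v} [Group S] [Finite S] (h : Same G S) {p r : ℕ} (hp : p.Prime) (hr : r.Prime) (hrp : r ≠ p)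
    (hE : NoEdge G r p) (hrG : r ∣ Nat.card G) {V : Subgroup G} (hVp : IsPGroup p V) {v : G} (hv : v ∈ V) (hv1 : v ≠ 1) :
    ∃ x : S, x ≠ 1 ∧ Nat.card (Subgroup.centralizer ({x} : Set S)) = Nat.card (Subgroup.centralizer ({v} : Set G)) ∧
      (Subgroup.centralizer ({x} : Set S)).index = (Subgroup.centralizer ({v} : Set G)).index := by
  have := Fact.mk hr
  obtain ⟨x, hx⟩ := h.mem v
  have hx' : Nat.card (Subgroup.centralizer ({x} : Set S)) = Nat.card (Subgroup.centralizer ({v} : Set G)) := hx
  refine ⟨x, ?_, hx', ?_⟩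
  · rintro rfl
    have h1 : Subgroup.centralizer ({1} : Set S) = ⊤ := by
      rw [eq_top_iff]
      intro y _
      rw [Subgroup.mem_centralizer_singleton_iff]
      simp
    rw [h1, Subgroup.card_top, ← h.card] at hx'
    have h2 : Subgroup.centralizer ({v} : Set G) = ⊤ := Subgroup.eq_top_of_card_eq _ hx'.symm
    obtain ⟨y, hy⟩ := exists_prime_orderOf_dvd_card' r hrG
    have h3 : Commute y v := mem_cent.1 (h2 ▸ Subgroup.mem_top y)
    obtain ⟨j, hj⟩ := hVp ⟨v, hv⟩
    have h6 : orderOf v ∣ p ^ j := orderOf_dvd_of_pow_eq_one (congrArg Subtype.val hj)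
    obtain ⟨i, -, hi⟩ := (Nat.dvd_prime_pow hp).1 h6
    have hi0 : i ≠ 0 := by
      rintro rfl
      rw [pow_zero, orderOf_eq_one_iff] at hi
      exact hv1 hi
    exact hE.false_of_dvd hr hp hrp h3 hy.symm.dvd (hi ▸ dvd_pow_self p hi0)
  · have e1 := (Subgroup.centralizer ({x} : Set S)).card_mul_index
    have e2 := (Subgroup.centralizer ({v} : Set G)).card_mul_index
    rw [h.card, ← e1, hx'] at e2
    exact (Nat.eq_of_mul_eq_mul_left Nat.card_pos e2).symm

variable {F : Type v} [Field F] [Fintype F]

theorem idx_six (hF : Fintype.card F = 2) {x : ProjectiveSpecialLinearGroup (Fin 6) F} (hx : x ≠ 1) :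
    1024 ≤ (Subgroup.centralizer ({x} : Set (ProjectiveSpecialLinearGroup (Fin 6) F))).index := by
  have h1 := (Subgroup.centralizer ({x} : Set (ProjectiveSpecialLinearGroup (Fin 6) F))).card_mul_index
  rw [card_six hF] at h1
  rcases cent_two hF (by norm_num) hx with h | h
  · have h2 : 2 ^ (2 * 6 - 3) * ∏ i : Fin (6 - 2), (2 ^ (6 - 2) - 2 ^ (i : ℕ)) = 10321920 := by decide
    rw [h2] at h
    rw [h] at h1
    omega
  · by_contra hcon
    push Not at hcon
    have h3 : Nat.card (Subgroup.centralizer ({x} : Set (ProjectiveSpecialLinearGroup (Fin 6) F))) *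
      (Subgroup.centralizer ({x} : Set (ProjectiveSpecialLinearGroup (Fin 6) F))).index ≤ 2 ^ (6 * 6 - 2 * 6 - 1) * 1023 :=
      Nat.mul_le_mul h (by omega)
    rw [h1] at h3
    norm_num at h3

theorem idx_seven (hF : Fintype.card F = 2) {x : ProjectiveSpecialLinearGroup (Fin 7) F} (hx : x ≠ 1) :
    (Subgroup.centralizer ({x} : Set (ProjectiveSpecialLinearGroup (Fin 7) F))).index = 8001 ∨
      8383 ≤ (Subgroup.centralizer ({x} : Set (ProjectiveSpecialLinearGroup (Fin 7) F))).index := by
  have h1 := (Subgroup.centralizer ({x} : Set (ProjectiveSpecialLinearGroup (Fin 7) F))).card_mul_index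
  rw [card_seven hF] at h1
  rcases cent_two hF (by norm_num) hx with h | h
  · left
    have h2 : 2 ^ (2 * 7 - 3) * ∏ i : Fin (7 - 2), (2 ^ (7 - 2) - 2 ^ (i : ℕ)) = 20478689280 := by decide
    rw [h2] at h
    rw [h] at h1
    omega
  · right
    by_contra hcon
    push Not at hcon
    have h3 : Nat.card (Subgroup.centralizer ({x} : Set (ProjectiveSpecialLinearGroup (Fin 7) F))) *
      (Subgroup.centralizer ({x} : Set (ProjectiveSpecialLinearGroup (Fin 7) F))).index ≤ 2 ^ (7 * 7 - 2 * 7 - 1) * 8382 :=
      Nat.mul_le_mul h (by omega)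
    rw [h1] at h3
    norm_num at h3

/-- **`O_2(G) = 1` for `G` with the order and the centralizer orders of `PSL_6(2)`.** -/
theorem pCore_six (hF : Fintype.card F = 2) (h : Same G (ProjectiveSpecialLinearGroup (Fin 6) F)) :
    pCore 2 G = ⊥ := by
  have h31 : Nat.Prime 31 := by norm_num
  have hfac := Fact.mk h31
  have hE : NoEdge G 31 2 := by
    refine (lat_psl_sub (F := F) (n := 6) (r := 31) Nat.prime_two le_rfl (by rw [hF]; rfl) (by norm_num) h31
      ?_).toLatW.noEdge h31 Nat.prime_two (by norm_num) h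
    have : Fact (Nat.Prime 5) := ⟨by norm_num⟩
    have h5 : (6 : ℕ) - 1 = 5 := rfl
    rw [h5]
    exact orderOf_eq_prime (by decide) (by decide)
  by_contra hne
  obtain ⟨V, hVn, hV1, hVp, hVc⟩ := exists_abelian Nat.prime_two hne
  have hG : Nat.card G = 20158709760 := h.card.trans (card_six hF)
  have hG31 : 31 ∣ Nat.card G := by rw [hG]; norm_num
  obtain ⟨y, hy⟩ := exists_prime_orderOf_dvd_card' 31 hG31
  have hmod := card_modEq Nat.prime_two h31 (by norm_num) hVn hVp hE hy
  have hN : ¬ 2 ^ (15 + 1) ∣ Nat.card G := by rw [hG]; norm_num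
  obtain ⟨k, hk, hk'⟩ := exists_pow_of Nat.prime_two hVp hN
  obtain ⟨⟨v, hv⟩, hv1'⟩ := Subgroup.ne_bot_iff_exists_ne_one.1 hV1
  have hv1 : v ≠ 1 := fun h => hv1' (Subtype.ext h)
  obtain ⟨x, hx1, -, hxi⟩ := exists_in h Nat.prime_two h31 (by norm_num) hE hG31 hVp hv hv1
  have h1 := index_le hVn hv hv1
  have h2 := idx_six hF hx1
  rw [hxi] at h2
  have hk15 : k = 15 := by
    rw [hk'] at hmod h1
    have h3 : 1024 < 2 ^ k := by omega
    have h4 : 10 < k := by
      by_contra hcon
      have : 2 ^ k ≤ 2 ^ 10 := Nat.pow_le_pow_right (by norm_num) (by omega)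
      omega
    interval_cases k <;> first | rfl | (exfalso; revert hmod; decide)
  subst hk15
  obtain ⟨j, ⟨u, hu⟩, hj⟩ := reg_psl (F := F) (p := 2) (f := 1) (n := 6) Nat.prime_two le_rfl (by rw [hF]; rfl)
    (by norm_num)
  obtain ⟨g, hg⟩ := h.exists_of_mem ⟨u, hu⟩
  have h5 := le_cent_of Nat.prime_two hVn hVp hVc hN hk' hg
  norm_num at h5 hj
  omega

/-- **`O_2(G) = 1` for `G` with the order and the centralizer orders of `PSL_7(2)`.** -/
theorem pCore_seven (hF : Fintype.card F = 2) (h : Same G (ProjectiveSpecialLinearGroup (Fin 7) F)) :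
    pCore 2 G = ⊥ := by
  have h127 : Nat.Prime 127 := by norm_num
  have hfac := Fact.mk h127
  have hE : NoEdge G 127 2 := (latw_seven hF).noEdge h127 Nat.prime_two (by norm_num) h
  by_contra hne
  obtain ⟨V, hVn, hV1, hVp, hVc⟩ := exists_abelian Nat.prime_two hne
  have hG : Nat.card G = 163849992929280 := h.card.trans (card_seven hF)
  have hG127 : 127 ∣ Nat.card G := by rw [hG]; norm_num
  obtain ⟨y, hy⟩ := exists_prime_orderOf_dvd_card' 127 hG127
  have hmod := card_modEq Nat.prime_two h127 (by norm_num) hVn hVp hE hy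
  have hN : ¬ 2 ^ (21 + 1) ∣ Nat.card G := by rw [hG]; norm_num
  obtain ⟨k, hk, hk'⟩ := exists_pow_of Nat.prime_two hVp hN
  have hidx : ∀ v ∈ V, v ≠ 1 → (Subgroup.centralizer ({v} : Set G)).index = 8001 ∨
      8383 ≤ (Subgroup.centralizer ({v} : Set G)).index := by
    intro v hv hv1
    obtain ⟨x, hx1, -, hxi⟩ := exists_in h Nat.prime_two h127 (by norm_num) hE hG127 hVp hv hv1
    rw [← hxi]
    exact idx_seven hF hx1
  obtain ⟨⟨v, hv⟩, hv1'⟩ := Subgroup.ne_bot_iff_exists_ne_one.1 hV1
  have hv1 : v ≠ 1 := fun h => hv1' (Subtype.ext h)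
  have h1 := index_le hVn hv hv1
  have h2 := hidx v hv hv1
  have hk2 : k = 14 ∨ k = 21 := by
    rw [hk'] at hmod h1
    have h3 : 8001 < 2 ^ k := by omega
    have h4 : 12 < k := by
      by_contra hcon
      have : 2 ^ k ≤ 2 ^ 12 := Nat.pow_le_pow_right (by norm_num) (by omega)
      omega
    interval_cases k <;> first | (left; rfl) | (right; rfl) | (exfalso; revert hmod; decide)
  obtain ⟨j, ⟨u, hu⟩, hj⟩ := reg_psl (F := F) (p := 2) (f := 1) (n := 7) Nat.prime_two le_rfl (by rw [hF]; rfl)
    (by norm_num)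
  obtain ⟨g, hg⟩ := h.exists_of_mem ⟨u, hu⟩
  rcases hk2 with rfl | rfl
  · -- `|V| = 2 ^ 14`
    -- orbits
    have horb : ∀ v : G, (Subgroup.centralizer ({v} : Set G)).index = (MulAction.orbit (ConjAct G) v).ncard := by
      intro v
      rw [← MulAction.index_stabilizer]
      have h3 := ConjAct.stabilizer_eq_centralizer v
      rw [h3]
      rfl
    have hsub : ∀ v ∈ V, v ≠ 1 → (MulAction.orbit (ConjAct G) v) ⊆ (V : Set G) \ {1} := by
      rintro v hv hv1 _ ⟨g, rfl⟩
      refine ⟨?_, ?_⟩
      · show g • v ∈ V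
        rw [ConjAct.smul_def]
        exact hVn.conj_mem v hv _
      · intro h
        apply hv1
        have h2 : g • v = 1 := h
        rwa [smul_eq_iff_eq_inv_smul, smul_one] at h2
    have hcardV : ((V : Set G) \ {1}).ncard = 16383 := by
      have h4 := Set.ncard_sdiff_singleton_add_one (s := (V : Set G)) (a := 1) V.one_mem (Set.toFinite _)
      have h5 : (V : Set G).ncard = Nat.card V := rfl
      rw [h5, hk'] at h4
      have h6 : (2 : ℕ) ^ 14 = 16384 := by norm_num
      omega
    -- the first orbit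
    set A := MulAction.orbit (ConjAct G) v with hA
    have hAs := hsub v hv hv1
    have hA1 : A.ncard = 8001 ∨ 8383 ≤ A.ncard := by rw [hA, ← horb]; exact h2
    by_cases hAeq : A = (V : Set G) \ {1}
    · -- the class size `16383` does not divide `|G|`
      have h3 : A.ncard = 16383 := by rw [hAeq, hcardV]
      rw [hA, ← horb] at h3
      have h4 : 16383 ∣ Nat.card G := h3 ▸ Subgroup.index_dvd_card _
      rw [hG] at h4
      norm_num at h4
    · obtain ⟨w, hw, hwA⟩ := Set.exists_of_ssubset (lt_of_le_of_ne hAs hAeq)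
      have hwV : w ∈ V := hw.1
      have hw1 : w ≠ 1 := hw.2
      set B := MulAction.orbit (ConjAct G) w with hB
      have hBs := hsub w hwV hw1
      have hB1 : B.ncard = 8001 ∨ 8383 ≤ B.ncard := by rw [hB, ← horb]; exact hidx w hwV hw1
      have hAB : Disjoint A B := by
        rw [Set.disjoint_left]
        intro z hzA hzB
        apply hwA
        have e1 : MulAction.orbit (ConjAct G) z = MulAction.orbit (ConjAct G) v := MulAction.orbit_eq_iff.2 hzA
        have e2 : MulAction.orbit (ConjAct G) z = MulAction.orbit (ConjAct G) w := MulAction.orbit_eq_iff.2 hzB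
        show w ∈ MulAction.orbit (ConjAct G) v
        rw [← e1, e2]
        exact MulAction.mem_orbit_self w
      have hABs : A ∪ B ⊆ (V : Set G) \ {1} := Set.union_subset hAs hBs
      have h3 := Set.ncard_le_ncard hABs (Set.toFinite _)
      rw [Set.ncard_union_eq hAB (Set.toFinite _) (Set.toFinite _), hcardV] at h3
      have hA2 : A.ncard = 8001 := by omega
      have hB2 : B.ncard = 8001 := by omega
      by_cases hABeq : A ∪ B = (V : Set G) \ {1}
      · have h4 := congrArg Set.ncard hABeq
        rw [Set.ncard_union_eq hAB (Set.toFinite _) (Set.toFinite _), hcardV, hA2, hB2] at h4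
        omega
      · obtain ⟨z, hz, hzAB⟩ := Set.exists_of_ssubset (lt_of_le_of_ne hABs hABeq)
        have hzV : z ∈ V := hz.1
        have hz1 : z ≠ 1 := hz.2
        set D := MulAction.orbit (ConjAct G) z with hD
        have hDs := hsub z hzV hz1
        have hD1 : D.ncard = 8001 ∨ 8383 ≤ D.ncard := by rw [hD, ← horb]; exact hidx z hzV hz1
        have hABD : Disjoint (A ∪ B) D := by
          rw [Set.disjoint_left]
          intro t ht htD
          apply hzAB
          have h5 : z ∈ MulAction.orbit (ConjAct G) t := by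
            rw [MulAction.orbit_eq_iff.2 htD]
            exact MulAction.mem_orbit_self z
          rcases ht with ht | ht
          · left
            have e1 : MulAction.orbit (ConjAct G) t = MulAction.orbit (ConjAct G) v := MulAction.orbit_eq_iff.2 ht
            show z ∈ MulAction.orbit (ConjAct G) v
            rw [← e1]
            exact h5
          · right
            have e1 : MulAction.orbit (ConjAct G) t = MulAction.orbit (ConjAct G) w := MulAction.orbit_eq_iff.2 ht
            show z ∈ MulAction.orbit (ConjAct G) w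
            rw [← e1]
            exact h5
        have h6 := Set.ncard_le_ncard (Set.union_subset hABs hDs) (Set.toFinite _)
        rw [Set.ncard_union_eq hABD (Set.toFinite _) (Set.toFinite _),
          Set.ncard_union_eq hAB (Set.toFinite _) (Set.toFinite _), hcardV] at h6
        omega
  · have h5 := le_cent_of Nat.prime_two hVn hVp hVc hN hk' hg
    norm_num at h5 hj
    omega

end main

end Cfsg.Agent.H277.CS
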